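import Mathlib
import Cfsg.Agent.TcData.HN.Cmp.Eq
import Cfsg.Agent.TcData.HNH.ChW.Facts

/-!
# The subgroup of index two in the stabiliser of a point of the Harada–Norton group

The group `⟨x, y, z⟩` of the presentation has a subgroup of index two, a non-split double cover of the
group of Higman and Sims: the action on `102` points shows the quotient and a commutator shows that no
complement exists.
-/

set_option autoImplicit false
set_option Elab.async false
set_option maxRecDepth 100000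
set_option linter.all false

namespace Cfsg.Agent.TcData.HN.Cover

open Cfsg Cfsg.Spor Cfsg.Agent.Lib.TcFacts Cfsg.Agent.Lib.TcBits Cfsg.Agent.Lib.TcPres Cfsg.Agent.Lib.TcRel
  Cfsg.Agent.Lib.TcChain Cfsg.Agent.Lib.TcAbs Cfsg.Agent.Lib.TcLevels Cfsg.Agent.Lib.TcCover Cfsg.Spor.HN
open scoped commutatorElement

/-- The relators of the smaller presentation. -/
abbrev RH : Set (FreeGroup Gen) := Cfsg.Agent.TcData.HNH.RR

/-- The relators of the presentation. -/
abbrev RG : Set (FreeGroup Gen) := Cfsg.Agent.TcData.HN.RR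

/-- The generators. -/
abbrev T : List Gen := Cfsg.Agent.TcData.HNH.Ch.SLt

/-- The subgroup of the smaller presentation. -/
abbrev A : Subgroup (PresentedGroup RH) := subOf RH T

/-- The subgroup of the presentation. -/
abbrev B : Subgroup (PresentedGroup RG) := subOf RG T

/-- The representation on `102` points. -/
noncomputable abbrev PW : PresentedGroup RH →* Equiv.Perm ℕ := Cfsg.Agent.TcData.HNH.W.Phi

theorem hSSeq : Cfsg.Agent.TcData.HN.I1539000.SS = (fun x => FreeGroup.of x) '' {x | x ∈ T} := by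
  ext y
  simp only [Cfsg.Agent.TcData.HN.I1539000.SS, T, Cfsg.Agent.TcData.HNH.Ch.SLt, Set.mem_insert_iff,
    Set.mem_singleton_iff, Set.mem_image, Set.mem_setOf_eq, List.mem_cons, List.not_mem_nil, or_false]
  constructor
  · rintro (rfl|rfl|rfl) <;> exact ⟨_, by simp, rfl⟩
  · rintro ⟨x, (rfl|rfl|rfl), rfl⟩ <;> simp

theorem hHH : Cfsg.Agent.TcData.HN.I1539000.HH = B := map_closure_eq_subOf hSSeq

theorem exists_e : Nonempty (A ≃* B) := by
  have hBm : B = A.map (piOf Cfsg.Agent.TcData.HN.I1539000.hRHRR) :=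
    (map_subOf Cfsg.Agent.TcData.HN.I1539000.hRHRR T).symm
  have hmem : ∀ k : A, piOf Cfsg.Agent.TcData.HN.I1539000.hRHRR k.1 ∈ B := fun k => by
    rw [hBm]
    exact Subgroup.mem_map_of_mem _ k.2
  let f : A →* B := ((piOf Cfsg.Agent.TcData.HN.I1539000.hRHRR).comp A.subtype).codRestrict B hmem
  have hf : Function.Surjective f := by
    rintro ⟨y, hy⟩
    have hy2 := hy
    rw [hBm] at hy2
    obtain ⟨k, hk, rfl⟩ := hy2
    exact ⟨⟨k, hk⟩, rfl⟩
  have hfi : Function.Injective f := by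
    intro a b hab
    have h1 : piOf Cfsg.Agent.TcData.HN.I1539000.hRHRR a.1 = piOf Cfsg.Agent.TcData.HN.I1539000.hRHRR b.1 :=
      congrArg Subtype.val hab
    exact Subtype.ext (Cfsg.Agent.TcData.HN.Cmp.hInj a.2 b.2 (congrArg Cfsg.Agent.TcData.HN.I1539000.Phi h1))
  exact ⟨MulEquiv.ofBijective f ⟨hfi, hf⟩⟩

/-- A word. -/
noncomputable def w0 : FreeGroup Gen :=
  x * y * x⁻¹ * y * z * y * z * y * y * y * x * y⁻¹ * y⁻¹ * y⁻¹ * z * y⁻¹ * z * y⁻¹ * x * y⁻¹

/-- The word of the commutator. -/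
noncomputable def vW : FreeGroup Gen := w0 * w0 * w0 * w0 * w0

/-- The word of the central element. -/
noncomputable def cW : FreeGroup Gen := x * x

/-- The relation of the central element and the commutator. -/
noncomputable def rW : FreeGroup Gen := x * vW * x⁻¹ * vW⁻¹ * cW⁻¹

theorem hrW_T : ∀ p ∈ rW.toWord, p.1 ∈ T := by decide +kernel

theorem hrW_S : ∀ j, j < 11 →
    wordApply (sgnProg Cfsg.Agent.TcData.HNH.V.pr) rW.toWord (slice 11 j) = slice 11 j := by
  decide +kernel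

theorem hrW : PresentedGroup.mk RH rW = 1 :=
  mk_eq_one_of_slices Cfsg.Agent.TcData.HNH.V.hR Cfsg.Agent.TcData.HNH.V.hv Cfsg.Agent.TcData.HNH.Fin.main.2
    hrW_T hrW_S

theorem hc1 : PresentedGroup.mk RH cW ≠ 1 :=
  mk_ne_one_of_apply Cfsg.Agent.TcData.HNH.V.hR Cfsg.Agent.TcData.HNH.V.hv (k := 11) (X := slice 11 0)
    (by decide +kernel)

theorem hc2 : PW (PresentedGroup.mk RH cW) = 1 := by
  show Cfsg.Agent.TcData.HNH.W.Phi _ = 1
  rw [Cfsg.Agent.TcData.HNH.W.Phi, repOf_mk _ Cfsg.Agent.TcData.HNH.W.hv, ← lift_eq_wordPerm Cfsg.Agent.TcData.HNH.W.hv]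
  exact lift_eq_one_of_slices Cfsg.Agent.TcData.HNH.W.hv (by decide +kernel)

theorem word_val {w : FreeGroup Gen} {a p : ℕ}
    (h : (wordApply (sgnProg Cfsg.Agent.TcData.HNH.W.pr) w.toWord (2 ^ a)).testBit p = true) :
    PW (PresentedGroup.mk RH w) p = a := by
  have hval := fun a => valid_sgnProg (N := 2 ^ 7) (pr := Cfsg.Agent.TcData.HNH.W.pr) Cfsg.Agent.TcData.HNH.W.hv a
  rw [testBit_wordApply _ _ _ (fun a _ => hval a), Nat.testBit_two_pow] at h
  have h2 := (of_decide_eq_true h).symm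
  show Cfsg.Agent.TcData.HNH.W.Phi _ _ = _
  rw [Cfsg.Agent.TcData.HNH.W.Phi, repOf_mk _ Cfsg.Agent.TcData.HNH.W.hv]
  exact h2.symm.symm

theorem hx100 : PW (PresentedGroup.mk RH x) 100 = 100 := word_val (by decide +kernel)
theorem hx101 : PW (PresentedGroup.mk RH x) 101 = 101 := word_val (by decide +kernel)
theorem hy100 : PW (PresentedGroup.mk RH y) 100 = 100 := word_val (by decide +kernel)
theorem hy101 : PW (PresentedGroup.mk RH y) 101 = 101 := word_val (by decide +kernel)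
theorem hz100 : PW (PresentedGroup.mk RH z) 100 = 101 := word_val (by decide +kernel)
theorem hz101 : PW (PresentedGroup.mk RH z) 101 = 100 := word_val (by decide +kernel)
theorem hv100 : PW (PresentedGroup.mk RH vW) 100 = 100 := word_val (by decide +kernel)

theorem hApair : A ≤ pairS.comap PW := by
  apply (Subgroup.closure_le _).mpr
  rintro _ ⟨a, ha, rfl⟩
  have ha' : a = Gen.x ∨ a = Gen.y ∨ a = Gen.z := by
    simpa [T, Cfsg.Agent.TcData.HNH.Ch.SLt] using ha
  rcases ha' with rfl | rfl | rfl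
  · exact Or.inl ⟨hx100, hx101⟩
  · exact Or.inl ⟨hy100, hy101⟩
  · exact Or.inr ⟨hz100, hz101⟩

theorem mem_A {w : FreeGroup Gen} (hw : ∀ p ∈ w.toWord, p.1 ∈ T) : PresentedGroup.mk RH w ∈ A := by
  have := mk_mem_subOf (R := RH) hw
  rwa [FreeGroup.mk_toWord] at this

theorem hxA : PresentedGroup.mk RH x ∈ A := mem_A (by decide +kernel)
theorem hzA : PresentedGroup.mk RH z ∈ A := mem_A (by decide +kernel)
theorem hvA : PresentedGroup.mk RH vW ∈ A := mem_A (by decide +kernel)
theorem hcA : PresentedGroup.mk RH cW ∈ A := mem_A (by decide +kernel)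

open Cfsg.Agent.TcData.HNH.ChW in
theorem hK' : Gp pL S0 ≤ A.map PW := hK

open Cfsg.Agent.TcData.HNH.ChW in
theorem h0 : Nat.card (Gp pL S0) ≠ 0 := by
  have hfA : Finite A := Nat.finite_of_card_ne_zero (by rw [Cfsg.Agent.TcData.HNH.Fin.main.1]; norm_num)
  have hfM : Finite (A.map PW) := Finite.of_surjective (PW.subgroupMap A) (PW.subgroupMap_surjective A)
  have hfG : Finite (Gp pL S0) := Finite.of_injective (Subgroup.inclusion hK') (Subgroup.inclusion_injective hK')
  exact Nat.card_pos.ne'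

open Cfsg.Agent.TcData.HNH.ChW in
theorem main : ∃ K : Subgroup ↥Cfsg.Agent.TcData.HN.I1539000.HH, K.Normal ∧ K.index = 2 ∧
    Cfsg.IsNonsplitDoubleCover K Spor.HS := by
  obtain ⟨e1⟩ := exists_e
  have hB : B = Cfsg.Agent.TcData.HN.I1539000.HH := hHH.symm
  let e : A ≃* ↥Cfsg.Agent.TcData.HN.I1539000.HH := e1.trans (MulEquiv.subgroupCongr hB)
  let ψ : ↥Cfsg.Agent.TcData.HN.I1539000.HH →* Equiv.Perm ℕ := (PW.comp A.subtype).comp e.symm.toMonoidHom
  have hψe : ∀ a : A, ψ (e a) = PW a.1 := by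
    intro a
    show PW (e.symm (e a)).1 = _
    rw [e.symm_apply_apply]
  have hN : Nat.card ↥Cfsg.Agent.TcData.HN.I1539000.HH = 177408000 := by
    rw [← Nat.card_congr e.toEquiv]
    exact Cfsg.Agent.TcData.HNH.Fin.main.1
  have hsurj : ∀ g : ↥Cfsg.Agent.TcData.HN.I1539000.HH, ∃ a : A, e a = g := fun g => ⟨e.symm g, e.apply_symm_apply g⟩
  let zA : A := ⟨_, hzA⟩
  let cA : A := ⟨_, hcA⟩
  let uA : A := ⟨_, hxA⟩
  let vA : A := ⟨_, hvA⟩
  have hcuv : cA = ⁅uA, vA⁆ := by
    apply Subtype.ext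
    have h := hrW
    simp only [rW, map_mul, map_inv] at h
    rw [mul_inv_eq_one] at h
    simp only [cW, map_mul] at h ⊢
    show _ = PresentedGroup.mk RH x * PresentedGroup.mk RH vW * (PresentedGroup.mk RH x)⁻¹ * (PresentedGroup.mk RH vW)⁻¹
    exact h.symm
  refine cover_of_data ψ (G0 := Gp pL S1) hN ?_ (z0 := e zA) ?_ ?_ ?_ (cards h0).1 (c := e cA) (u := e uA) (v := e vA)
    ?_ ?_ ?_ ?_ ?_ hZ (hHS h0)
  · intro g
    obtain ⟨a, rfl⟩ := hsurj g
    rw [hψe]
    exact hApair a.2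
  · rw [hψe]
    exact hz100
  · intro h hh
    have h2 : h ∈ A.map PW := hK' (hG1le hh)
    obtain ⟨a, ha, rfl⟩ := h2
    exact ⟨e ⟨a, ha⟩, hψe ⟨a, ha⟩⟩
  · intro h hh
    exact hG0fix hh 100 le_rfl
  · intro h
    exact hc1 (congrArg Subtype.val (e.injective (h.trans (map_one e).symm)))
  · rw [hψe]
    exact hc2
  · rw [hψe]
    exact hx100
  · rw [hψe]
    exact hv100
  · rw [hcuv, map_commutatorElement]

end Cfsg.Agent.TcData.HN.Cover
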